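import Cfsg.Agent.FischerRecog58.Assemble
import Cfsg.Agent.Fi22Out.Main
import Cfsg.Agent.FStar.SelfCentralizing
import Cfsg.Agent.TwoComponents.DoubleLayer
import Cfsg.Agent.CpQuot.Basic

/-!
A group with a central involution `t` and a subgroup `M` of index two in which the centraliser of
a further involution `u` is quasisimple with quotient `PSU(6,2)`: then `M` is the generalised
Fitting subgroup and the quotient by `t` is the automorphism group of `Fi22`.
-/

set_option autoImplicit false

namespace CfsgLib.LargeFischer91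

open Cfsg

universe v

variable {H : Type v} [Group H]

/-- A surjective image of a perfect group is perfect. -/
theorem perfect_of_surjective {L : Type*} [Group L] (h : Group.IsPerfect H) (f : H →* L)
    (hf : Function.Surjective f) : Group.IsPerfect L := by
  haveI := h
  refine ⟨?_⟩
  rw [commutator_def, ← Subgroup.map_top_of_surjective f hf, ← Subgroup.map_commutator,
    ← commutator_def, Group.IsPerfect.commutator_eq_top]

/-- A quotient of a quasisimple group by a proper subgroup is quasisimple. -/
theorem quasisimple_image {L : Type*} [Group L] [Nontrivial L] (h : IsQuasisimple H) (f : H →* L)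
    (hf : Function.Surjective f) : IsQuasisimple L := by
  obtain ⟨e⟩ := CfsgLib.CpQuot.quotCenterEquiv h f hf
  refine ⟨perfect_of_surjective h.1 f hf, ?_⟩
  haveI := h.2
  exact e.symm.isSimpleGroup

/-- A simple perfect group is quasisimple. -/
theorem quasisimple_of_simple (hs : IsSimpleGroup H) (hp : Group.IsPerfect H) : IsQuasisimple H := by
  haveI := hs
  refine ⟨hp, ?_⟩
  rcases (inferInstance : (Subgroup.center H).Normal).eq_bot_or_eq_top with h | h
  · exact (QuotientGroup.quotientBot.symm.trans (QuotientGroup.quotientMulEquivOfEq h.symm)).symm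
      |>.isSimpleGroup
  · haveI := hp
    have hb : commutator H = ⊥ := by
      rw [commutator_def, Subgroup.commutator_eq_bot_iff_le_centralizer]
      intro x _ y _
      exact Subgroup.mem_center_iff.1 (h ▸ Subgroup.mem_top x) y
    rw [Group.IsPerfect.commutator_eq_top] at hb
    exact absurd hb top_ne_bot

/-- Automorphisms of isomorphic groups. -/
theorem card_mulAut_congr {A : Type*} {B : Type*} [Group A] [Group B] (e : A ≃* B) :
    Nat.card (MulAut A) = Nat.card (MulAut B) :=
  Nat.card_congr (MulAut.congr e).toEquiv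

variable [Finite H]

/-- A normal quasisimple subgroup containing its centraliser is the generalised Fitting group. -/
theorem generalizedFitting_eq {M : Subgroup H} [hn : M.Normal] (hq : IsQuasisimple ↥M)
    (hc : Subgroup.centralizer (M : Set H) ≤ M) : generalizedFittingSubgroup H = M := by
  have hMc : IsComponent M := ⟨Subgroup.Normal.isSubnormal hn, hq⟩
  refine le_antisymm (sup_le (sSup_le ?_) ?_) (le_sup_of_le_left (le_sSup hMc))
  · rintro L ⟨hLs, hLq⟩
    rcases CfsgLib.TwoComponents.component_le_or_commute L hLq hLs M hn with h | h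
    · exact h
    · rw [Subgroup.commutator_eq_bot_iff_le_centralizer] at h
      exact h.trans hc
  · haveI := CfsgLib.Fitting.fittingSubgroup_isNilpotent H
    have h := CfsgLib.FStar.component_commute_nilpotent hMc (N := fittingSubgroup H) inferInstance
    rw [Subgroup.commutator_comm, Subgroup.commutator_eq_bot_iff_le_centralizer] at h
    exact h.trans hc

/-- The structure of the centraliser of `t`. -/
theorem finish (t u : H) (ht : orderOf t = 2) (htc : t ∈ Subgroup.center H) (hu : orderOf u = 2)
    (hut : u ≠ t) [(Subgroup.zpowers t).Normal] (M : Subgroup H) [hMn : M.Normal]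
    (hM : M.index = 2)
    (hW : Subgroup.centralizer ({u} : Set H) ≤ M)
    (hswap : ∀ g ∈ M, g * u * g⁻¹ ≠ t * u)
    (hq : IsQuasisimple ↥(Subgroup.centralizer ({u} : Set H)))
    (K : Type) [Field K] [Fintype K] (hK : Fintype.card K = 4)
    (f : ↥(Subgroup.centralizer ({u} : Set H)) →* Cfsg.PSU 6 K 2) (hf : Function.Surjective f)
    (hfk : ∀ x, f x = 1 ↔ ((x : H) = 1 ∨ (x : H) = t ∨ (x : H) = u ∨ (x : H) = t * u))
    (hnwc : ∃ m ∈ M, m * u * m⁻¹ ≠ u ∧ Commute (m * u * m⁻¹) u) :
    IsQuasisimple ↥(generalizedFittingSubgroup H) ∧ (generalizedFittingSubgroup H).index = 2 ∧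
      t ∈ generalizedFittingSubgroup H ∧
      Nonempty (H ⧸ Subgroup.zpowers t ≃* MulAut Cfsg.Spor.Fi22) := by
  classical
  have := CfsgLib.CosetEnum.Fi22.finite_fi22
  set N := Subgroup.zpowers t
  let π : H →* H ⧸ N := QuotientGroup.mk' N
  have ht1 : t ≠ 1 := fun h => by rw [h, orderOf_one] at ht; omega
  have hu1 : u ≠ 1 := fun h => by rw [h, orderOf_one] at hu; omega
  have htt : t * t = 1 := by rw [← sq, ← ht]; exact pow_orderOf_eq_one t
  have huu : u * u = 1 := by rw [← sq, ← hu]; exact pow_orderOf_eq_one u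
  have hcomm : ∀ g : H, g * t = t * g := fun g => Subgroup.mem_center_iff.1 htc g
  have hN : ∀ x : H, π x = 1 ↔ x = 1 ∨ x = t := by
    intro x
    rw [QuotientGroup.mk'_apply, QuotientGroup.eq_one_iff]
    constructor
    · intro hx
      obtain ⟨k, rfl⟩ := Subgroup.mem_zpowers_iff.1 hx
      rcases Int.even_or_odd' k with ⟨m, rfl | rfl⟩
      · exact Or.inl (by rw [zpow_mul, zpow_two, htt, one_zpow])
      · exact Or.inr (by rw [zpow_add, zpow_mul, zpow_two, htt, one_zpow, one_mul, zpow_one])
    · rintro (rfl | rfl)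
      · exact one_mem _
      · exact Subgroup.mem_zpowers _
  have hπ : ∀ x y : H, π x = π y ↔ x = y ∨ x = t * y := by
    intro x y
    rw [← mul_inv_eq_one, ← map_inv, ← map_mul, hN, mul_inv_eq_one, mul_inv_eq_iff_eq_mul]
  have huW : u ∈ Subgroup.centralizer ({u} : Set H) :=
    Subgroup.mem_centralizer_singleton_iff.2 rfl
  have htW : t ∈ Subgroup.centralizer ({u} : Set H) :=
    Subgroup.mem_centralizer_singleton_iff.2 (hcomm u).symm
  have huM : u ∈ M := hW huW
  have htM : t ∈ M := hW htW
  -- the image of `M`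
  let πM : ↥M →* H ⧸ N := π.comp M.subtype
  let X := πM.range
  let πX : ↥M →* ↥X := πM.rangeRestrict
  have hπX : Function.Surjective πX := πM.rangeRestrict_surjective
  let d : ↥X := πX ⟨u, huM⟩
  have hd1 : d ≠ 1 := fun h => by
    rcases (hN u).1 (congrArg Subtype.val h) with h | h
    · exact hu1 h
    · exact hut h
  have hd : orderOf d = 2 := by
    refine orderOf_eq_prime ?_ hd1
    rw [← map_pow]
    exact (congrArg πX (Subtype.ext (by simpa [sq] using huu) : (⟨u, huM⟩ : ↥M) ^ 2 = 1)).trans
      (map_one _)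
  have hcent : ∀ m : ↥M, Commute (πX m) d ↔ (m : H) ∈ Subgroup.centralizer ({u} : Set H) := by
    intro m
    rw [Subgroup.mem_centralizer_singleton_iff]
    constructor
    · intro h
      have h' : π (m * u * (m : H)⁻¹) = π u := by
        rw [map_mul, map_mul, map_inv, mul_inv_eq_iff_eq_mul]
        exact congrArg Subtype.val h.eq
      rcases (hπ _ _).1 h' with e | e
      · exact mul_inv_eq_iff_eq_mul.1 e
      · exact absurd e (hswap m m.2)
    · intro h
      exact (show Commute (m : ↥M) ⟨u, huM⟩ from Subtype.ext h).map πX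
  let ρ : ↥(Subgroup.centralizer ({u} : Set H)) →* ↥(Subgroup.centralizer ({d} : Set ↥X)) :=
    (πX.comp (Subgroup.inclusion hW)).codRestrict _ fun w =>
      Subgroup.mem_centralizer_singleton_iff.2 ((hcent (Subgroup.inclusion hW w)).2 w.2).eq
  have hρs : Function.Surjective ρ := by
    rintro ⟨y, hy⟩
    obtain ⟨m, rfl⟩ := hπX y
    exact ⟨⟨m, (hcent m).1 (Subgroup.mem_centralizer_singleton_iff.1 hy)⟩, Subtype.ext rfl⟩
  have hρ1 : ∀ w, ρ w = 1 ↔ ((w : H) = 1 ∨ (w : H) = t) := fun w => by
    rw [← hN]
    exact ⟨fun h => congrArg (fun r : ↥(Subgroup.centralizer ({d} : Set ↥X)) => ((r : ↥X) : H ⧸ N)) h,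
      fun h => Subtype.ext (Subtype.ext h)⟩
  have hdC : d ∈ Subgroup.centralizer ({d} : Set ↥X) :=
    Subgroup.mem_centralizer_singleton_iff.2 rfl
  haveI : Nontrivial ↥(Subgroup.centralizer ({d} : Set ↥X)) :=
    ⟨⟨⟨d, hdC⟩, 1, fun h => hd1 (congrArg Subtype.val h)⟩⟩
  have hqC : IsQuasisimple ↥(Subgroup.centralizer ({d} : Set ↥X)) := quasisimple_image hq ρ hρs
  haveI hzn : ((Subgroup.zpowers d).subgroupOf (Subgroup.centralizer ({d} : Set ↥X))).Normal := by
    refine ⟨fun n hn g => ?_⟩
    have hc : Commute (g : ↥X) d := Subgroup.mem_centralizer_singleton_iff.1 g.2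
    obtain ⟨k, hk⟩ := Subgroup.mem_zpowers_iff.1 (Subgroup.mem_subgroupOf.1 hn)
    rw [Subgroup.mem_subgroupOf]
    simp only [Subgroup.coe_mul, InvMemClass.coe_inv]
    rw [← hk, (hc.zpow_right k).eq, mul_inv_cancel_right]
    exact Subgroup.zpow_mem _ (Subgroup.mem_zpowers d) k
  let q := QuotientGroup.mk' ((Subgroup.zpowers d).subgroupOf (Subgroup.centralizer ({d} : Set ↥X)))
  have hker : (q.comp ρ).ker = f.ker := by
    ext w
    rw [MonoidHom.mem_ker, MonoidHom.mem_ker, hfk, MonoidHom.comp_apply, QuotientGroup.mk'_apply,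
      QuotientGroup.eq_one_iff, Subgroup.mem_subgroupOf]
    constructor
    · intro h
      obtain ⟨k, hk⟩ := Subgroup.mem_zpowers_iff.1 h
      rcases Int.even_or_odd' k with ⟨m, rfl | rfl⟩
      · rw [zpow_mul, zpow_two, ← sq, ← hd, pow_orderOf_eq_one, one_zpow] at hk
        rcases (hρ1 w).1 (Subtype.ext hk.symm) with h | h
        · exact Or.inl h
        · exact Or.inr (Or.inl h)
      · rw [zpow_add, zpow_mul, zpow_two, ← sq, ← hd, pow_orderOf_eq_one, one_zpow, one_mul,
          zpow_one] at hk
        rcases (hπ (w : H) u).1 (congrArg Subtype.val hk.symm) with h | h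
        · exact Or.inr (Or.inr (Or.inl h))
        · exact Or.inr (Or.inr (Or.inr h))
    · rintro (h | h | h | h)
      · rw [(hρ1 w).2 (Or.inl h)]; exact one_mem _
      · rw [(hρ1 w).2 (Or.inr h)]; exact one_mem _
      · have e : ((ρ w : ↥(Subgroup.centralizer ({d} : Set ↥X))) : ↥X) = d :=
          Subtype.ext (congrArg π h)
        rw [e]; exact Subgroup.mem_zpowers d
      · have e : ((ρ w : ↥(Subgroup.centralizer ({d} : Set ↥X))) : ↥X) = d :=
          Subtype.ext ((hπ _ _).2 (Or.inr h))
        rw [e]; exact Subgroup.mem_zpowers d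
  let e : _ ≃* Cfsg.PSU 6 K 2 :=
    (QuotientGroup.quotientKerEquivOfSurjective (q.comp ρ)
      ((QuotientGroup.mk'_surjective _).comp hρs)).symm.trans
      ((QuotientGroup.quotientMulEquivOfEq hker).trans
        (QuotientGroup.quotientKerEquivOfSurjective f hf))
  obtain ⟨m, hm, hmu, hmc⟩ := hnwc
  have hI : Cfsg.Spor.IsoFi22 ↥X := by
    refine CfsgLib.FischerRecog58.recog22_iso
      (CfsgLib.FischerRecog58.hyp_of d hd hqC K hK e ⟨πX ⟨m, hm⟩, ?_, ?_⟩)
    · rw [Subgroup.mem_centralizer_singleton_iff, ← map_inv, ← map_mul, ← map_mul]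
      exact ((show Commute (⟨m, hm⟩ * ⟨u, huM⟩ * (⟨m, hm⟩ : ↥M)⁻¹ : ↥M) ⟨u, huM⟩ from
        Subtype.ext hmc.eq).map πX).eq
    · intro h
      rw [← map_inv, ← map_mul, ← map_mul] at h
      rcases (hπ _ _).1 (congrArg Subtype.val h) with h' | h'
      · exact hmu h'
      · exact hswap m hm h'
  obtain ⟨eX⟩ := hI
  haveI := CfsgLib.CosetEnum.Fi22.simple
  haveI hsX : IsSimpleGroup ↥X := eX.isSimpleGroup
  -- `M` is quasisimple
  haveI hWp : Group.IsPerfect ↥(Subgroup.centralizer ({u} : Set H)) := hq.1
  have hpX : Group.IsPerfect ↥X :=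
    perfect_of_surjective (H := Cfsg.Spor.Fi22) ⟨CfsgLib.FischerRecog58.commutator22⟩
      eX.symm.toMonoidHom eX.symm.surjective
  have htMM : (⟨t, htM⟩ : ↥M) ∈ commutator ↥M := by
    have h : (⟨t, htW⟩ : ↥(Subgroup.centralizer ({u} : Set H))) ∈ commutator _ := by
      rw [Group.IsPerfect.commutator_eq_top]; exact Subgroup.mem_top _
    have := Subgroup.mem_map_of_mem (Subgroup.inclusion hW) h
    rw [commutator_def, Subgroup.map_commutator] at this
    rw [commutator_def]
    exact Subgroup.commutator_mono le_top le_top this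
  haveI hpM : Group.IsPerfect ↥M := by
    refine ⟨eq_top_iff.2 fun x _ => ?_⟩
    have hx : πX x ∈ (commutator ↥M).map πX := by
      rw [commutator_def, Subgroup.map_commutator, Subgroup.map_top_of_surjective _ hπX,
        ← commutator_def, hpX.commutator_eq_top]
      exact Subgroup.mem_top _
    obtain ⟨y, hy, hyx⟩ := hx
    rcases (hπ (x : H) y).1 (congrArg Subtype.val hyx.symm) with h | h
    · rw [show x = y from Subtype.ext h]; exact hy
    · rw [show x = ⟨t, htM⟩ * y from Subtype.ext h]; exact mul_mem htMM hy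
  have hkerX : πX.ker ≤ Subgroup.center ↥M := by
    intro x hx
    refine Subgroup.mem_center_iff.2 fun y => Subtype.ext ?_
    rcases (hN (x : H)).1 (congrArg Subtype.val (MonoidHom.mem_ker.1 hx)) with h | h
    · simp [h]
    · show (y : H) * x = x * y
      rw [h, hcomm]
  have hqM : IsQuasisimple ↥M :=
    CfsgLib.TwoComponents.isQuasisimple_of_surjective πX hπX hkerX (quasisimple_of_simple hsX hpX)
  have hCM : Subgroup.centralizer (M : Set H) ≤ M := fun g hg =>
    hW (Subgroup.mem_centralizer_singleton_iff.2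
      (Subgroup.mem_centralizer_iff.1 hg u huM).symm)
  have hF := generalizedFitting_eq hqM hCM
  refine ⟨hF.symm ▸ hqM, hF ▸ hM, hF ▸ htM, ?_⟩
  -- the quotient
  haveI hXn : (πM.range).Normal := by
    rw [MonoidHom.range_comp, Subgroup.range_subtype]
    exact hMn.map π (QuotientGroup.mk'_surjective N)
  let c : H ⧸ N →* MulAut ↥X := MulAut.conjNormal
  have hc : Function.Injective c := by
    rw [injective_iff_map_eq_one]
    intro y hy
    obtain ⟨g, rfl⟩ := QuotientGroup.mk'_surjective N y
    have hfix : ∀ x ∈ M, π (g * x * g⁻¹) = π x := by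
      intro x hx
      have := congrArg (fun a : MulAut ↥X => ((a (πX ⟨x, hx⟩) : ↥X) : H ⧸ N)) hy
      rw [map_mul, map_mul, map_inv]
      rw [MulAut.one_apply] at this
      simp only [c, MulAut.conjNormal_apply] at this
      exact this
    have hgW : ∀ x ∈ M, Commute g x := by
      have hker : ∀ x ∈ M, g * x * g⁻¹ * x⁻¹ = 1 ∨ g * x * g⁻¹ * x⁻¹ = t := fun x hx => by
        refine (hN _).1 ?_
        rw [map_mul, hfix x hx, map_inv, mul_inv_cancel]
      let χ : ↥M →* ↥(Subgroup.center H) :=
        { toFun := fun x => ⟨g * (x : H) * g⁻¹ * (x : H)⁻¹, by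
            rcases hker x x.2 with h | h <;> rw [h]
            · exact one_mem _
            · exact htc⟩
          map_one' := by ext; simp
          map_mul' := fun x y => by
            ext
            show g * ((x : H) * y) * g⁻¹ * ((x : H) * y)⁻¹ =
              g * (x : H) * g⁻¹ * (x : H)⁻¹ * (g * (y : H) * g⁻¹ * (y : H)⁻¹)
            have hz : g * (y : H) * g⁻¹ * (y : H)⁻¹ ∈ Subgroup.center H := by
              rcases hker y y.2 with h | h <;> rw [h]
              · exact one_mem _
              · exact htc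
            calc g * ((x : H) * y) * g⁻¹ * ((x : H) * y)⁻¹
                = g * (x : H) * g⁻¹ * (g * (y : H) * g⁻¹ * (y : H)⁻¹) * (x : H)⁻¹ := by group
              _ = _ := by rw [mul_assoc _ _ (x : H)⁻¹, ← Subgroup.mem_center_iff.1 hz, ← mul_assoc] }
      intro x hx
      have h1 : commutator ↥M ≤ χ.ker := by
        rw [commutator_def, Subgroup.commutator_le]
        intro a _ b _
        rw [MonoidHom.mem_ker, map_commutatorElement, commutatorElement_eq_one_iff_mul_comm]
        exact Subtype.ext (Subgroup.mem_center_iff.1 (χ b).2 _)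
      rw [hpM.commutator_eq_top] at h1
      have h2 := congrArg Subtype.val (MonoidHom.mem_ker.1 (h1 (Subgroup.mem_top ⟨x, hx⟩)))
      exact mul_inv_eq_iff_eq_mul.1 (mul_inv_eq_one.1 h2)
    have hgM : g ∈ M := hCM (Subgroup.mem_centralizer_iff.2 fun x hx => (hgW x hx).symm.eq)
    have hgZ : πX ⟨g, hgM⟩ ∈ Subgroup.center ↥X := by
      refine Subgroup.mem_center_iff.2 fun y => ?_
      obtain ⟨x, rfl⟩ := hπX y
      exact ((show Commute (⟨g, hgM⟩ : ↥M) x from Subtype.ext (hgW x x.2).eq).map πX).eq.symm
    haveI := hpX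
    rcases (inferInstance : (Subgroup.center ↥X).Normal).eq_bot_or_eq_top with h | h
    · rw [h, Subgroup.mem_bot] at hgZ
      exact congrArg Subtype.val hgZ
    · exfalso
      have hb : commutator ↥X = ⊥ := by
        rw [commutator_def, Subgroup.commutator_eq_bot_iff_le_centralizer]
        intro x _ y _
        exact Subgroup.mem_center_iff.1 (h ▸ Subgroup.mem_top x) y
      rw [hpX.commutator_eq_top] at hb
      exact top_ne_bot hb
  have hidx : X.index = 2 := by
    show (π.comp M.subtype).range.index = 2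
    rw [MonoidHom.range_comp, Subgroup.range_subtype, Subgroup.index_map_eq M
      (QuotientGroup.mk'_surjective N)
      (by rw [QuotientGroup.ker_mk']; exact (Subgroup.zpowers_le).2 htM), hM]
  have hcard : Nat.card (H ⧸ N) = 129123503308800 := by
    rw [← X.card_mul_index, hidx, Nat.card_congr eX.toEquiv, CfsgLib.CosetEnum.Fi22.card_fi22]
  have hA : Finite (MulAut Cfsg.Spor.Fi22) :=
    Finite.of_injective (fun a : MulAut Cfsg.Spor.Fi22 => (a.toEquiv : Cfsg.Spor.Fi22 ≃ Cfsg.Spor.Fi22))
      fun a b h => MulEquiv.ext fun x => by simpa using congrArg (fun e => e x) h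
  let φ : H ⧸ N →* MulAut Cfsg.Spor.Fi22 := (MulAut.congr eX).toMonoidHom.comp c
  have hφ : Function.Injective φ := (MulAut.congr eX).injective.comp hc
  haveI := hA
  exact ⟨MulEquiv.ofBijective φ ((Nat.bijective_iff_injective_and_card φ).2 ⟨hφ,
    le_antisymm (Nat.card_le_card_of_injective φ hφ) (hcard ▸ CfsgLib.Fi22Out.card_aut_le)⟩)⟩

end CfsgLib.LargeFischer91
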