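import Cfsg.Agent.LargeFischer91.Fusion
import Cfsg.Agent.LargeFischer91.Finish
import Cfsg.Agent.LargeFischer58.Quasisimple
import Cfsg.Agent.LargeFischer58.Recognise
import Cfsg.Agent.LargeFischer58.Cover

/-!
Large Fischer type: the structure of the centralizer of a noncentral involution of `Q`, given the
plane data of `C(E)/E`.
-/

set_option autoImplicit false
set_option maxRecDepth 100000

namespace CfsgLib.LargeFischer91

open Cfsg CfsgLib.LargeFischer85 CfsgLib.LargeFischer28 CfsgLib.LargeFischer45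
  CfsgLib.LargeFischer58

universe v

/-- The generalised Fitting subgroup is carried along isomorphisms. -/
theorem generalizedFitting_map {H : Type v} [Group H] [Finite H] {H' : Type v} [Group H'] [Finite H']
    (e : H ≃* H') :
    (generalizedFittingSubgroup H).map e.toMonoidHom = generalizedFittingSubgroup H' := by
  have key : ∀ {A : Type v} [Group A] [Finite A] {B : Type v} [Group B] (f : A ≃* B),
      (generalizedFittingSubgroup A).map f.toMonoidHom ≤ generalizedFittingSubgroup B := by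
    intro A _ _ B _ f
    rw [generalizedFittingSubgroup, generalizedFittingSubgroup, Subgroup.map_sup]
    exact sup_le_sup (CfsgLib.FStar.layer_map f) (CfsgLib.FStar.fittingSubgroup_map f)
  refine le_antisymm (key e) fun x hx => ?_
  exact ⟨e.symm x, key e.symm ⟨x, hx, rfl⟩, e.apply_symm_apply x⟩

/-- The statement about the centralizer of `t`. -/
def Concl {G : Type v} [Group G] (t : G) : Prop :=
  ∀ hn : ((Subgroup.zpowers t).subgroupOf (Subgroup.centralizer ({t} : Set G))).Normal,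
    haveI := hn
    IsQuasisimple ↥(generalizedFittingSubgroup ↥(Subgroup.centralizer ({t} : Set G))) ∧
      (generalizedFittingSubgroup ↥(Subgroup.centralizer ({t} : Set G))).index = 2 ∧
      (∃ htc : t ∈ Subgroup.centralizer ({t} : Set G),
        (⟨t, htc⟩ : ↥(Subgroup.centralizer ({t} : Set G))) ∈
          generalizedFittingSubgroup ↥(Subgroup.centralizer ({t} : Set G))) ∧
      Nonempty (↥(Subgroup.centralizer ({t} : Set G)) ⧸
          (Subgroup.zpowers t).subgroupOf (Subgroup.centralizer ({t} : Set G)) ≃*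
        MulAut Cfsg.Spor.Fi22)

/-- The statement does not change under conjugation. -/
theorem concl_of_isConj {G : Type v} [Group G] [Finite G] {s t : G} (hst : IsConj s t)
    (hs : Concl s) : Concl t := by
  intro hn
  obtain ⟨g, rfl⟩ := isConj_iff.1 hst
  set Hs := Subgroup.centralizer ({s} : Set G)
  set Ht := Subgroup.centralizer ({g * s * g⁻¹} : Set G)
  have hH : Hs.map (MulAut.conj g).toMonoidHom = Ht := by
    ext x
    constructor
    · rintro ⟨y, hy, rfl⟩
      rw [Subgroup.mem_centralizer_singleton_iff]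
      show g * y * g⁻¹ * (g * s * g⁻¹) = g * s * g⁻¹ * (g * y * g⁻¹)
      rw [conj_mul, conj_mul, Subgroup.mem_centralizer_singleton_iff.1 hy]
    · intro hx
      have hx' := Subgroup.mem_centralizer_singleton_iff.1 hx
      refine ⟨g⁻¹ * x * g, Subgroup.mem_centralizer_singleton_iff.2 ?_, ?_⟩
      · calc g⁻¹ * x * g * s = g⁻¹ * (x * (g * s * g⁻¹)) * g := by group
          _ = g⁻¹ * (g * s * g⁻¹ * x) * g := by rw [hx']
          _ = _ := by group
      · show g * (g⁻¹ * x * g) * g⁻¹ = x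
        group
  let e : ↥Hs ≃* ↥Ht := ((MulAut.conj g).subgroupMap Hs).trans (MulEquiv.subgroupCongr hH)
  have he : ∀ x : ↥Hs, (e x : G) = g * (x : G) * g⁻¹ := fun x => rfl
  have hz : ((Subgroup.zpowers s).subgroupOf Hs).map e.toMonoidHom =
      (Subgroup.zpowers (g * s * g⁻¹)).subgroupOf Ht := by
    ext x
    obtain ⟨y, rfl⟩ := e.surjective x
    rw [show e y = e.toMonoidHom y from rfl,
      Subgroup.mem_map_iff_mem (f := e.toMonoidHom) e.injective, Subgroup.mem_subgroupOf,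
      Subgroup.mem_subgroupOf, MulEquiv.coe_toMonoidHom, he, Subgroup.mem_zpowers_iff, Subgroup.mem_zpowers_iff]
    exact exists_congr fun k => by rw [conj_zpow, mul_left_inj, mul_right_inj]
  haveI hns : ((Subgroup.zpowers s).subgroupOf Hs).Normal := by
    refine ⟨fun n hn' x => ?_⟩
    rw [← Subgroup.mem_map_iff_mem (f := e.toMonoidHom) e.injective, hz, map_mul, map_mul, map_inv]
    exact hn.conj_mem _ (hz ▸ ⟨n, hn', rfl⟩) _
  obtain ⟨h1, h2, ⟨hsc, h3⟩, ⟨φ⟩⟩ := hs hns
  have hF := generalizedFitting_map e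
  refine ⟨?_, ?_, ⟨Subgroup.mem_centralizer_singleton_iff.2 rfl, ?_⟩, ⟨?_⟩⟩
  · exact hF ▸ CfsgLib.Balance.isQuasisimple_of_mulEquiv (e.subgroupMap _) h1
  · rw [← hF]
    exact (Subgroup.index_map_equiv _ e).trans h2
  · rw [← hF]
    exact ⟨_, h3, Subtype.ext (he _)⟩
  · exact (QuotientGroup.congr _ _ e hz).symm.trans φ

variable {G : Type v} [Group G] [Finite G] {z : G} {Q : Subgroup ↥(CG z)} [Q.Normal]
  (C : LargeFischer58.Cfg z Q)

/-- The structure of `C(ab)`. -/
theorem at_ab (hP : PlaneData C.base C.Ab) : Concl (C.d C.a C.b) := by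
  intro hn
  obtain ⟨hsimple, F, iF, iFt, hF, ⟨e⟩⟩ := hP.simple_iso
  haveI := hsimple
  obtain ⟨j, hjA, hj1, hjc⟩ := hP.other
  have hnc : ∃ a b : C.X, a * b ≠ b * a := by
    by_contra hno
    push Not at hno
    refine hP.ne (hP.central _ fun d _ => hno _ d)
  have hq : IsQuasisimple ↥C.CE := C.quasisimple hnc
  obtain ⟨M, hMn, hMi, hCE, hswap, m, hmM, hm1, hm2⟩ :=
    exists_index_two C (fun j hj hjz hj2 => C.cover hj hjz hj2) hq.1
  haveI := hMn
  have habT : C.d C.a C.b ∈ CT C := AG_le_CT C (C.duads.mem _ _ C.hab)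
  have hbcT : C.d C.b C.c ∈ CT C := AG_le_CT C (C.duads.mem _ _ C.hbc)
  set t : ↥(CT C) := ⟨C.d C.a C.b, habT⟩
  set u : ↥(CT C) := ⟨C.d C.b C.c, hbcT⟩
  have hord : ∀ {p q : GolayPt} (hpq : p ≠ q) (h : C.d p q ∈ CT C),
      orderOf (⟨C.d p q, h⟩ : ↥(CT C)) = 2 := by
    intro p q hpq h
    refine orderOf_eq_prime (Subtype.ext ?_) fun e => ?_
    · show (C.d p q) ^ 2 = 1
      rw [sq, C.AG_sq (C.duads.mem _ _ hpq)]
    · exact (C.duads.other _ _ hpq).1 (congrArg Subtype.val e)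
  have htc : t ∈ Subgroup.center ↥(CT C) :=
    Subgroup.mem_center_iff.2 fun g => Subtype.ext ((mem_CT C).1 g.2)
  have hut : u ≠ t := fun e => C.d_ne C.hbc
    (show ¬(C.a = C.b ∧ C.b = C.c) ∧ ¬(C.a = C.c ∧ C.b = C.b) from
      ⟨fun h => C.hab h.1, fun h => C.hac h.1⟩) (congrArg Subtype.val e)
  haveI : (Subgroup.zpowers t).Normal := by
    refine ⟨fun n hn g => ?_⟩
    have : n ∈ Subgroup.center ↥(CT C) := Subgroup.zpowers_le.2 htc hn
    rwa [Subgroup.mem_center_iff.1 this g, mul_inv_cancel_right]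
  have hmemW : ∀ g : ↥(CT C),
      g ∈ Subgroup.centralizer ({u} : Set ↥(CT C)) ↔ (g : G) ∈ C.CE := by
    intro g
    rw [Subgroup.mem_centralizer_singleton_iff, C.mem_CE_iff, Subtype.ext_iff]
    exact ⟨fun h => ⟨(mem_CT C).1 g.2, h⟩, fun h => h.2⟩
  let ι : ↥(Subgroup.centralizer ({u} : Set ↥(CT C))) ≃* ↥C.CE :=
    { toFun := fun g => ⟨(g.1 : G), (hmemW g.1).1 g.2⟩
      invFun := fun g => ⟨⟨g.1, CE_le_CT C g.2⟩, (hmemW _).2 g.2⟩
      left_inv := fun _ => rfl
      right_inv := fun _ => rfl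
      map_mul' := fun _ _ => rfl }
  let f : ↥(Subgroup.centralizer ({u} : Set ↥(CT C))) →* Cfsg.PSU 6 F 2 :=
    (e.toMonoidHom.comp C.proj).comp ι.toMonoidHom
  have hfs : Function.Surjective f :=
    (e.surjective.comp C.proj_surj).comp ι.surjective
  have hfk : ∀ x, f x = 1 ↔ ((x : ↥(CT C)) = 1 ∨ (x : ↥(CT C)) = t ∨ (x : ↥(CT C)) = u ∨
      (x : ↥(CT C)) = t * u) := by
    intro x
    show e (C.proj (ι x)) = 1 ↔ _
    rw [MulEquiv.map_eq_one_iff, C.proj_eq_one_iff, C.mem_E_iff, Subtype.ext_iff, Subtype.ext_iff,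
      Subtype.ext_iff, Subtype.ext_iff]
    show _ ↔ _ ∨ _ ∨ _ ∨ ((x : ↥(CT C)) : G) = C.d C.a C.b * C.d C.b C.c
    rw [C.ab_bc]
    exact Iff.rfl
  obtain ⟨h1, h2, h3, ⟨φ⟩⟩ := finish t u (hord C.hab habT) htc (hord C.hbc hbcT) hut M hMi
    (fun g hg => hCE g ((hmemW g).1 hg))
    (fun g hg e' => hswap g hg (by
      have := congrArg Subtype.val e'
      exact this.trans C.ab_bc))
    (CfsgLib.Balance.isQuasisimple_of_mulEquiv ι.symm hq) F hF f hfs hfk
    ⟨m, hmM, fun e' => hm1 (congrArg Subtype.val e'), Subtype.ext hm2⟩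
  have hz : Subgroup.zpowers t = (Subgroup.zpowers (C.d C.a C.b)).subgroupOf (CT C) := by
    ext x
    rw [Subgroup.mem_subgroupOf, Subgroup.mem_zpowers_iff, Subgroup.mem_zpowers_iff]
    exact exists_congr fun k => by rw [Subtype.ext_iff, Subgroup.coe_zpow]
  refine ⟨h1, h2, ⟨habT, h3⟩, ⟨?_⟩⟩
  haveI : ((Subgroup.zpowers (C.d C.a C.b)).subgroupOf (CT C)).Normal := hn
  exact (QuotientGroup.quotientMulEquivOfEq hz).symm.trans φ

/-- The structure of the centralizer of any noncentral involution of `Q`. -/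
theorem at_noncentral (hP : PlaneData C.base C.Ab) {t : G}
    (htQ : ∃ htc : t ∈ CG z, (⟨t, htc⟩ : ↥(CG z)) ∈ Q) (ht2 : orderOf t = 2)
    (ht : ¬ IsConj z t) : Concl t := by
  obtain ⟨htc, htQ⟩ := htQ
  obtain ⟨q1, p1, c1⟩ := C.q1
  set q : ↥Q := ⟨⟨t, htc⟩, htQ⟩
  have h0 : C.pr q ≠ 0 := by
    intro h
    rcases (C.std.model.pr_zero q).1 h with (h : t = 1) | (h : t = z)
    · rw [h, orderOf_one] at ht2
      omega
    · exact ht (h ▸ IsConj.refl z)
  have hs : sing (C.pr q) := (C.std.model.pr_sq q).2 (Subtype.ext (Subtype.ext (by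
    show t * t = 1
    rw [← sq, ← ht2]
    exact pow_orderOf_eq_one t)))
  have h1 : inOne 0 (C.pr q) := by
    by_contra h
    exact ht ((C.std.cls.two q h0 hs).2 h)
  have hc : IsConj (C.d C.a C.b) t := by
    rw [← c1]
    exact C.std.cls.one q1 q (p1.symm ▸ lineBasic.2.2.1) h1
  exact concl_of_isConj hc (at_ab C hP)

end CfsgLib.LargeFischer91
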